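import Mathlib
import Cfsg.Agent.Lib.Helper51.TIH.Defs
import Cfsg.Agent.Lib.Helper41.PSL2Solv

/-!
# TIH (S4118), package [FWD]: a finite solvable group has no subgroup isomorphic to `SL(2,5)`.
-/

set_option autoImplicit false

namespace Cfsg.Agent.Lib.Helper67.TIH

open Cfsg.Agent.Lib.Helper51.TIH

universe u

/-- `SL(2,5)` is not solvable. -/
theorem sl25_not_isSolvable :
    ¬ Group.IsSolvable (Matrix.SpecialLinearGroup (Fin 2) (ZMod 5)) := by
  have : Fact (Nat.Prime 5) := ⟨by norm_num⟩
  intro h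
  have h4 : 4 ≤ Fintype.card (ZMod 5) := by rw [ZMod.card]; norm_num
  have hns := Cfsg.Agent.Lib.Helper41.not_isSolvable_psl2 (F := ZMod 5) h4
  apply hns
  exact Group.isSolvable_of_surjective (QuotientGroup.mk'_surjective _)

theorem pkgFwd : PkgFwd.{u} := by
  intro G _ _ hG K hK
  obtain ⟨e⟩ := hK
  have := hG
  have h1 : Group.IsSolvable (Matrix.SpecialLinearGroup (Fin 2) (ZMod 5)) :=
    Group.isSolvable_of_surjective (f := e.toMonoidHom) e.surjective
  exact sl25_not_isSolvable h1

end Cfsg.Agent.Lib.Helper67.TIH
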